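import Mathlib
import Cfsg.Agent.Lib.Dade.PB
import Cfsg.Agent.Lib.Blocks.AbFree12
import Cfsg.Agent.Lib.Blocks.SectionSum
import Cfsg.Agent.Lib.Blocks.KleinFour
import Cfsg.Agent.Lib.Dade.DU

/-!
# Blocks with cyclic defect groups: the values of the column sums
-/

set_option autoImplicit false
set_option linter.unusedSectionVars false
set_option linter.style.haveILetI false

namespace Cfsg.Agent.Lib.Dade

open Cfsg Cfsg.Agent.Lib.Blocks.Local Cfsg.Agent.Lib.Blocks.Central Cfsg.Agent.Lib.Blocks.Osima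
open Cfsg.Agent.Lib.Blocks.Covering Cfsg.Agent.Lib.Blocks.BlockHom Cfsg.Agent.Lib.Blocks.Pairs
open Cfsg.Agent.Lib.Blocks.Twisted Cfsg.Agent.Lib.Blocks.Necklace Cfsg.Agent.Lib.Blocks.Nilp
open Cfsg.Agent.Lib.Blocks.Regular Cfsg.Agent.Lib.Blocks.Sections Cfsg.Agent.Lib.Blocks.CycloSums
open Cfsg.Agent.Lib.Blocks.Transport Cfsg.Agent.Lib.Blocks.BrauerMap
open Cfsg.Agent.Lib.Blocks.AbFree
open Cfsg.Agent.Lib.Char.Virtual
open ComplexConjugate

universe u

section Expand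

variable {K : Type u} [Group K] [Fintype K] {p : ℕ}

/-- Expansion of a sum of conjugate inner products. -/
lemma sum_conj_inner {ι : Type*} (S : Finset ι) (h : ι → K → ℂ) (t : ι → ℂ) (ζ : K → ℂ) :
    ∑ j ∈ S, conj (classInner (reg p (h j)) ζ) * t j =
      (Nat.card K : ℂ)⁻¹ * ∑ c : K, ζ c * ∑ j ∈ S, conj (reg p (h j) c) * t j := by
  simp only [classInner, map_mul, map_sum, map_inv₀, map_natCast, Complex.conj_conj, Finset.mul_sum, Finset.sum_mul]
  rw [Finset.sum_comm]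
  refine Finset.sum_congr rfl fun c _ => Finset.sum_congr rfl fun j _ => ?_
  ring

end Expand

section Gamma

variable {G : Type u} [Group G] [Fintype G] {M : Ideal AlgInt} [hM : M.IsPrime] {p : ℕ} [hp : Fact p.Prime]
  {B : Set (IrrCharacter G)} {P : Subgroup G} {e : Set (IrrCharacter (Subgroup.centralizer (P : Set G)))}

open Classical in
/-- **The value of a column sum on its own section.** -/
theorem gamma_value (hMp : IsPModular p M) (hmax : IsMaximalBrauerPair p M B P e)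
    (hab : ∀ x ∈ P, ∀ y ∈ P, x * y = y * x) {v : G} (hv : v ∈ P) [Fintype (Kz v)]
    (hnil : IsNilpotentBlock p M (eBlk M p P e v)) {ζ : IrrCharacter (Kz v)}
    (hζ : ζ ∈ eBlk M p P e v)
    (hnorm : wt P v * ∑ g : Kz v, reg p (ζ : Kz v → ℂ) g * conj ((ζ : Kz v → ℂ) g) = 1) (d : Kz v) (hd : ¬ p ∣ orderOf d) :
    ∑ χ ∈ Finset.univ.filter (· ∈ B), conj (AA p P χ v ζ) * (χ : G → ℂ) (v * d) = ((Pf P).card : ℂ) * (ζ : Kz v → ℂ) d := by
  have hPe := hmax.1.1
  obtain ⟨χ₀, hB⟩ := hmax.1.2.1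
  have hχ₀ : χ₀ ∈ B := by
    rw [hB]
    exact mem_blockOf_self _
  obtain ⟨k, hk⟩ := exists_orderOf_of_mem hPe.1 hv
  have hf := isPBlock_eBlk hMp hPe hv
  obtain ⟨dd, hdd⟩ := exists_d_of_norm hMp hmax hab hv hnil hζ hnorm
  have hN := card_mul_N hab hv hnorm
  have hN2 := N_mul_sum_d hMp hf hζ dd hdd
  obtain ⟨N, hNdef⟩ : ∃ N : ℂ, N = classInner (reg p (ζ : Kz v → ℂ)) (ζ : Kz v → ℂ) := ⟨_, rfl⟩
  rw [← hNdef] at hN hN2
  have hNconj : conj N = N := by
    have : N = ((Pf P).card : ℂ)⁻¹ := eq_inv_of_mul_eq_one_right hN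
    rw [this, map_inv₀, map_natCast]
  have h1 : ∑ χ ∈ Finset.univ.filter (· ∈ B), conj (AA p P χ v ζ) * (χ : G → ℂ) (v * d) =
      ((Pf P).card : ℂ) * ∑ χ ∈ Finset.univ.filter (· ∈ B),
        conj (classInner (reg p (sec χ v)) (ζ : Kz v → ℂ)) * (χ : G → ℂ) (v * d) := by
    rw [Finset.mul_sum]
    refine Finset.sum_congr rfl fun χ _ => ?_
    simp only [AA, map_mul, map_natCast]
    ring
  rw [h1]
  congr 1
  have h2 : ∑ χ ∈ Finset.univ.filter (· ∈ B), conj (classInner (reg p (sec χ v)) (ζ : Kz v → ℂ)) * (χ : G → ℂ) (v * d) =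
      ∑ ξ ∈ Finset.univ.filter (· ∈ inducers (Kz v) M (χ₀ : G → ℂ)),
        conj (classInner (reg p (ξ : Kz v → ℂ)) (ζ : Kz v → ℂ)) * (ξ : Kz v → ℂ) d := by
    rw [sum_conj_inner, sum_conj_inner]
    congr 1
    refine Finset.sum_congr rfl fun c _ => ?_
    congr 1
    by_cases hc : p ∣ orderOf c
    · simp only [reg_of_dvd _ hc, map_zero, zero_mul, Finset.sum_const_zero]
    · simp only [reg_of_not_dvd _ hc]
      have h3 := sum_block_section_of_eq hMp hk (Cfsg.Agent.Lib.Blocks.AbelianCount.cz_eq_cen v) χ₀ d c hd hc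
      rw [← hB] at h3
      calc ∑ χ ∈ Finset.univ.filter (· ∈ B), conj (sec χ v c) * (χ : G → ℂ) (v * d)
          = ∑ χ ∈ Finset.univ.filter (· ∈ B), (χ : G → ℂ) (v * d) * conj ((χ : G → ℂ) (v * c)) :=
            Finset.sum_congr rfl fun χ _ => by
              simp only [sec]
              ring
        _ = _ := h3
        _ = _ := Finset.sum_congr rfl fun ξ _ => by ring
  rw [h2]
  have h3 : ∑ ξ ∈ Finset.univ.filter (· ∈ eBlk M p P e v),
        conj (classInner (reg p (ξ : Kz v → ℂ)) (ζ : Kz v → ℂ)) * (ξ : Kz v → ℂ) d =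
      ∑ ξ ∈ Finset.univ.filter (· ∈ inducers (Kz v) M (χ₀ : G → ℂ)),
        conj (classInner (reg p (ξ : Kz v → ℂ)) (ζ : Kz v → ℂ)) * (ξ : Kz v → ℂ) d := by
    refine Finset.sum_subset ?_ ?_
    · intro ξ hξ
      exact Finset.mem_filter.mpr ⟨Finset.mem_univ _, eBlk_subset_inducers hMp hmax hv hχ₀ (Finset.mem_filter.mp hξ).2⟩
    · intro ξ _ hξ
      have hξ' : ξ ∉ eBlk M p P e v := fun h => hξ (Finset.mem_filter.mpr ⟨Finset.mem_univ _, h⟩)
      rw [classInner_reg_eq_zero_of_closed hMp (Cfsg.Agent.Lib.Blocks.BlockCount.isClosed_of_isPBlock hf) hξ' hζ, map_zero,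
        zero_mul]
  rw [← h3]
  have h4 : ∀ ξ ∈ Finset.univ.filter (· ∈ eBlk M p P e v),
      conj (classInner (reg p (ξ : Kz v → ℂ)) (ζ : Kz v → ℂ)) * (ξ : Kz v → ℂ) d =
        N * ((dd ξ : ℂ) * (dd ξ : ℂ)) * (ζ : Kz v → ℂ) d := by
    intro ξ hξ
    rw [inner_reg_of_mul (hdd ξ (Finset.mem_filter.mp hξ).2), ← hNdef, map_mul, map_natCast, hNconj,
      hdd ξ (Finset.mem_filter.mp hξ).2 d hd]
    ring
  rw [Finset.sum_congr rfl h4, ← Finset.sum_mul, ← Finset.mul_sum, hN2, one_mul]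

open Classical in
/-- **The column sum vanishes off its section.** -/
theorem gamma_zero (hMp : IsPModular p M) (hB : IsPBlock M B) {v g u : G} {k : ℕ} (hk : orderOf v = p ^ k) [Fintype (Kz v)]
    (hgu : IsPPart p g u) (hnc : ¬ IsConj u v) (ζ : Kz v → ℂ) :
    ∑ χ ∈ Finset.univ.filter (· ∈ B), conj (classInner (reg p (sec χ v)) ζ) * (χ : G → ℂ) g = 0 := by
  rw [sum_conj_inner]
  apply mul_eq_zero_of_right
  refine Finset.sum_eq_zero fun c _ => ?_
  apply mul_eq_zero_of_right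
  by_cases hc : p ∣ orderOf c
  · simp only [reg_of_dvd _ hc, map_zero, zero_mul, Finset.sum_const_zero]
  · simp only [reg_of_not_dvd _ hc]
    have hp2 : IsPPart p (v * (c : G)) v :=
      ⟨c, rfl, (mem_centralizer_zpowers_iff.mp c.2).symm, ⟨k, hk⟩, by rwa [Subgroup.orderOf_coe]⟩
    have h1 := block_orthogonality hMp hgu hp2 hnc hB
    rw [Cfsg.Agent.Lib.Blocks.Osima.finsum_mem_eq_sum_filter] at h1
    refine Eq.trans (Finset.sum_congr rfl fun χ _ => ?_) h1
    simp only [sec]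
    rw [Cfsg.Agent.Lib.Char.Ortho.conj_of_isCharacter (Cfsg.Agent.Lib.Char.Basic.isCharacter_of_isIrrCharacter χ.2)]
    ring

/-- The two possibilities for an element. -/
theorem gamma_cases (v g : G) :
    (∃ u, IsPPart p g u ∧ ¬ IsConj u v) ∨ ∃ (t : G) (d : Kz v), ¬ p ∣ orderOf d ∧ g = t * (v * d) * t⁻¹ := by
  obtain ⟨u, hu⟩ := Cfsg.Agent.Lib.Blocks.SecondMain.exists_isPPart p g
  by_cases hc : IsConj u v
  · right
    obtain ⟨t, ht⟩ := isConj_iff.mp hc.symm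
    obtain ⟨y, hy, hcomm, -, hyreg⟩ := hu
    have hd : t⁻¹ * y * t ∈ Kz v := by
      apply mem_centralizer_zpowers_iff.mpr
      have h1 : (t * v * t⁻¹) * y = y * (t * v * t⁻¹) := by
        rw [ht]
        exact hcomm.eq
      calc t⁻¹ * y * t * v = t⁻¹ * (y * (t * v * t⁻¹)) * t := by group
        _ = t⁻¹ * ((t * v * t⁻¹) * y) * t := by rw [h1]
        _ = _ := by group
    refine ⟨t, ⟨_, hd⟩, ?_, ?_⟩
    · rw [Subgroup.orderOf_mk]
      have h2 : t⁻¹ * y * t = t⁻¹ * y * t⁻¹⁻¹ := by simp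
      rw [h2, Cfsg.Agent.Lib.Dade.orderOf_conj'']
      exact hyreg
    · simp only
      rw [← hy, ← ht]
      group
  · exact Or.inl ⟨u, hu, hc⟩

lemma card_centralizer_mul_of_eq {z : G} {k : ℕ} (hz : orderOf z = p ^ k) {K : Subgroup G} (hK : K = Cen z)
    (y : K) (hy : ¬ p ∣ orderOf y) :
    Nat.card (Subgroup.centralizer ({z * (y : G)} : Set G)) = Nat.card (Subgroup.centralizer ({y} : Set K)) := by
  subst hK
  exact Cfsg.Agent.Lib.Blocks.PrincipalCen.card_centralizer_mul hz y hy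

end Gamma

end Cfsg.Agent.Lib.Dade
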