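import Mathlib
import Cfsg.Agent.Lib.Dade.PC

/-!
# Blocks with cyclic defect groups: integrality of the column sums and the inversion formula
-/

set_option autoImplicit false
set_option linter.unusedSectionVars false
set_option linter.style.haveILetI false

namespace Cfsg.Agent.Lib.Dade

open Cfsg Cfsg.Agent.Lib.Blocks.Local Cfsg.Agent.Lib.Blocks.Central Cfsg.Agent.Lib.Blocks.Osima
open Cfsg.Agent.Lib.Blocks.Covering Cfsg.Agent.Lib.Blocks.BlockHom Cfsg.Agent.Lib.Blocks.Pairs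
open Cfsg.Agent.Lib.Blocks.Twisted Cfsg.Agent.Lib.Blocks.Necklace Cfsg.Agent.Lib.Blocks.Nilp
open Cfsg.Agent.Lib.Blocks.Regular Cfsg.Agent.Lib.Blocks.Sections Cfsg.Agent.Lib.Blocks.CycloSums
open Cfsg.Agent.Lib.Blocks.Transport Cfsg.Agent.Lib.Blocks.BrauerMap
open Cfsg.Agent.Lib.Blocks.AbFree
open Cfsg.Agent.Lib.Char.Virtual
open ComplexConjugate

universe u

section Loc

variable {G : Type u} [Group G] [Fintype G] {M : Ideal AlgInt} [hM : M.IsPrime] {p : ℕ} [hp : Fact p.Prime]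
  {B : Set (IrrCharacter G)} {P : Subgroup G} {e : Set (IrrCharacter (Subgroup.centralizer (P : Set G)))}

open Classical in
/-- **The column sums are local and divisible.** -/
theorem colsum_loc (hMp : IsPModular p M) (hmax : IsMaximalBrauerPair p M B P e)
    (hab : ∀ x ∈ P, ∀ y ∈ P, x * y = y * x) {v : G} (hv : v ∈ P) (hv1 : v ≠ 1) [Fintype (Kz v)]
    (hnil : IsNilpotentBlock p M (eBlk M p P e v)) {ζ : IrrCharacter (Kz v)}
    (hζ : ζ ∈ eBlk M p P e v)
    (hnorm : wt P v * ∑ g : Kz v, reg p (ζ : Kz v → ℂ) g * conj ((ζ : Kz v → ℂ) g) = 1) (g : G) :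
    (¬ p ∣ orderOf g → ∑ χ ∈ Finset.univ.filter (· ∈ B), conj (AA p P χ v ζ) * (χ : G → ℂ) g = 0) ∧
    MemLocalRing M ((∑ χ ∈ Finset.univ.filter (· ∈ B), conj (AA p P χ v ζ) * (χ : G → ℂ) g) / ((Pf P).card : ℂ)) ∧
    MemLocalRing M ((∑ χ ∈ Finset.univ.filter (· ∈ B), conj (AA p P χ v ζ) * (χ : G → ℂ) g) /
      (Nat.card (Subgroup.centralizer ({g} : Set G)) : ℂ)) := by
  have hPe := hmax.1.1
  have hB : IsPBlock M B := hmax.1.2.1
  obtain ⟨k, hk⟩ := exists_orderOf_of_mem hPe.1 hv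
  have hzero : ∀ u, IsPPart p g u → ¬ IsConj u v →
      ∑ χ ∈ Finset.univ.filter (· ∈ B), conj (AA p P χ v ζ) * (χ : G → ℂ) g = 0 := by
    intro u hu hnc
    have h1 : ∑ χ ∈ Finset.univ.filter (· ∈ B), conj (AA p P χ v ζ) * (χ : G → ℂ) g =
        ((Pf P).card : ℂ) * ∑ χ ∈ Finset.univ.filter (· ∈ B),
          conj (classInner (reg p (sec χ v)) (ζ : Kz v → ℂ)) * (χ : G → ℂ) g := by
      rw [Finset.mul_sum]
      refine Finset.sum_congr rfl fun χ _ => ?_
      simp only [AA, map_mul, map_natCast]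
      ring
    rw [h1, gamma_zero hMp hB hk hu hnc, mul_zero]
  refine ⟨fun hg => ?_, ?_⟩
  · refine hzero 1 (Cfsg.Agent.Lib.Blocks.AbFrob.isPPart_one_of_reg hg) fun hc => hv1 ?_
    exact isConj_one_right.mp hc
  rcases gamma_cases (p := p) v g with ⟨u, hu, hnc⟩ | ⟨t, d, hd, rfl⟩
  · rw [hzero u hu hnc, zero_div, zero_div]
    exact ⟨memLocalRing_zero, memLocalRing_zero⟩
  have hval : ∑ χ ∈ Finset.univ.filter (· ∈ B), conj (AA p P χ v ζ) * (χ : G → ℂ) (t * (v * d) * t⁻¹) =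
      ((Pf P).card : ℂ) * (ζ : Kz v → ℂ) d := by
    rw [← gamma_value hMp hmax hab hv hnil hζ hnorm d hd]
    refine Finset.sum_congr rfl fun χ _ => ?_
    rw [isClassFunction_of_irr χ.2]
  have hPne : ((Pf P).card : ℂ) ≠ 0 := by
    have hN := card_mul_N hab hv hnorm
    exact left_ne_zero_of_mul_eq_one hN
  rw [hval]
  refine ⟨?_, ?_⟩
  · rw [mul_div_cancel_left₀ _ hPne]
    exact memLocalRing_of_isIntegral (isIntegral_irr ζ.2 d)
  -- the centralizer
  have hc1 : Nat.card (Subgroup.centralizer ({t * (v * d) * t⁻¹} : Set G)) =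
      Nat.card (Subgroup.centralizer ({d} : Set (Kz v))) := by
    rw [Cfsg.Agent.S0916.card_centralizer_conj]
    exact card_centralizer_mul_of_eq hk (Cfsg.Agent.Lib.Blocks.AbelianCount.cz_eq_cen v) d hd
  rw [hc1]
  have hf := isPBlock_eBlk hMp hPe hv
  have hle := eBlk_spec hMp hPe hv
  have hD := Cfsg.Agent.Lib.Blocks.AbelianCount.isDefectGroup_of_abelian hMp hmax hab (Subgroup.zpowers_le.mpr hv) hf hle
  have hl : blockRank p (eBlk M p P e v) = 1 := (Cfsg.Agent.S4689.result p M hMp _ hnil).1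
  obtain ⟨ρ, dd, hρ, -, -, hρ2⟩ := Cfsg.Agent.Lib.Blocks.KleinFour.exists_reg_eq p hMp hf hD hl
  have hcardD := Cfsg.Agent.S0908.result p M hMp _ hf _ hD
  have hPK : P ≤ Kz v := fun u hu => mem_centralizer_zpowers_iff.mpr (hab u hu v hv)
  have hq : ((Pf P).card : ℂ) = (p : ℂ) ^ blockDefect p (eBlk M p P e v) := by
    have h1 : Nat.card (P.subgroupOf (Kz v)) = (Pf P).card := by
      rw [Nat.card_congr (Subgroup.subgroupOfEquivOfLe hPK).toEquiv, Nat.card_eq_fintype_card, Fintype.card_subtype]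
      rfl
    rw [← h1, hcardD]
    push_cast
    rfl
  have hζd : (ζ : Kz v → ℂ) d = (dd ζ : ℂ) * ρ d := by
    have h1 := congrFun (hρ ζ hζ) d
    rw [reg_of_not_dvd _ hd] at h1
    simpa using h1
  have h3 := hρ2 d
  rw [hq, hζd]
  have h4 : (p : ℂ) ^ blockDefect p (eBlk M p P e v) * ((dd ζ : ℂ) * ρ d) /
      (Nat.card (Subgroup.centralizer ({d} : Set (Kz v))) : ℂ) = (dd ζ : ℂ) *
      ((p : ℂ) ^ blockDefect p (eBlk M p P e v) * ρ d / (Nat.card (Subgroup.centralizer ({d} : Set (Kz v))) : ℂ)) := by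
    ring
  rw [h4]
  exact memLocalRing_mul (memLocalRing_natCast _) h3

end Loc

section Inv

variable {G : Type u} [Group G] [Fintype G] {A : Type u} [Group A] [Fintype A] {p : ℕ} [hp : Fact p.Prime]
  {S : Finset (IrrCharacter G)} {F : IrrCharacter G → A → ℂ} {E : Subgroup (MulAut A)}

/-- Representatives of the orbits on the nontrivial characters. -/
theorem exists_dual_reps (H : LatHyp p S F E) [Fintype E] [Fintype (A →* ℂˣ)] :
    ∃ R : Finset (A →* ℂˣ), (∀ r ∈ R, r ≠ 1) ∧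
      (∀ r ∈ R, ∀ r' ∈ R, (∃ σ ∈ E, r' = r.comp (σ : MulAut A).toMonoidHom) → r = r') ∧
      R.card * Fintype.card E = Nat.card A - 1 := by
  classical
  have hcardD : Fintype.card (A →* ℂˣ) = Nat.card A := by
    rw [← Nat.card_eq_fintype_card]
    exact Cfsg.Agent.Lib.Blocks.AbFrob.card_dual H.hc
  let act : E → (A →* ℂˣ) → (A →* ℂˣ) := fun σ φ => φ.comp ((σ : MulAut A)⁻¹).toMonoidHom
  have hact1 : ∀ φ, act 1 φ = φ := by
    intro φ
    ext a
    simp [act]
  have hactm : ∀ σ τ φ, act (σ * τ) φ = act σ (act τ φ) := by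
    intro σ τ φ
    ext a
    simp [act, mul_inv_rev]
  have hactne : ∀ σ : E, ∀ φ : A →* ℂˣ, φ ≠ 1 → act σ φ ≠ 1 := by
    intro σ φ hφ h
    apply hφ
    ext a
    have h5 := congrArg (fun f : A →* ℂˣ => f ((σ : MulAut A) a)) h
    simpa [act] using h5
  have hfix : ∀ σ : MulAut A, σ ∈ E → σ ≠ 1 → ∀ v : A, σ v = v → v = 1 := by
    intro σ hσ hne v hv
    by_contra hv1
    exact hne (H.hfree σ hσ v hv1 hv)
  obtain ⟨R, hRY, hRu, hRc⟩ := Cfsg.Agent.Lib.Blocks.AbFree.exists_reps act hact1 hactm (Finset.univ.erase (1 : A →* ℂˣ))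
    (fun σ φ hφ => Finset.mem_erase.mpr ⟨hactne σ φ (Finset.ne_of_mem_erase hφ), Finset.mem_univ _⟩)
    (fun σ φ hφ h => by
      have h1 : (σ : MulAut A)⁻¹ = 1 := eq_one_of_comp_eq H.hc (hfix _ (E.inv_mem σ.2)) (Finset.ne_of_mem_erase hφ) h
      apply Subtype.ext
      simpa using h1)
  refine ⟨R, fun r hr => Finset.ne_of_mem_erase (hRY hr), ?_, ?_⟩
  · rintro r hr r' hr' ⟨σ, hσ, rfl⟩
    obtain ⟨t, -, ht⟩ := hRu r (hRY hr)
    have e1 := ht r ⟨hr, 1, hact1 r⟩
    have e2 := ht _ ⟨hr', (⟨σ, hσ⟩ : E)⁻¹, by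
      ext a
      simp [act]⟩
    exact e1.trans e2.symm
  · rw [hRc, Finset.card_erase_of_mem (Finset.mem_univ _), Finset.card_univ, hcardD]

variable {X : Finset (IrrCharacter G)} {a : IrrCharacter G → ℤ} {s₀ : ℤ} {y : (A →* ℂˣ) → IrrCharacter G}

open Classical in
/-- The orbit sum of a column. -/
lemma sum_orbit (H : LatHyp p S F E) [Fintype E] {χ₀ : IrrCharacter G} (hχ₀ : χ₀ ∈ S) {v : A} (hv : v ≠ 1) :
    ∑ u ∈ (Finset.univ.erase 1 : Finset A), conj (F χ₀ u) * (if ∃ σ ∈ E, σ u = v then (Nat.card A : ℂ) else 0) =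
      (Fintype.card E : ℂ) * (Nat.card A : ℂ) * conj (F χ₀ v) := by
  have h1 : (Finset.univ : Finset E).image (fun σ : E => (σ : MulAut A) v) =
      (Finset.univ.erase 1 : Finset A).filter (fun u => ∃ σ ∈ E, σ u = v) := by
    ext u
    simp only [Finset.mem_image, Finset.mem_univ, true_and, Finset.mem_filter, Finset.mem_erase, and_true, Subtype.exists,
      exists_prop]
    constructor
    · rintro ⟨σ, hσ, rfl⟩
      refine ⟨?_, σ⁻¹, inv_mem hσ, by simp⟩
      intro h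
      apply hv
      simpa using h
    · rintro ⟨-, σ, hσ, rfl⟩
      exact ⟨σ⁻¹, inv_mem hσ, by simp⟩
  have hinj : Function.Injective (fun σ : E => (σ : MulAut A) v) := by
    intro σ τ h
    have h5 : ((τ⁻¹ * σ : E) : MulAut A) v = v := by
      show (τ : MulAut A)⁻¹ ((σ : MulAut A) v) = v
      have h6 : (σ : MulAut A) v = (τ : MulAut A) v := h
      rw [h6]
      simp
    have h7 := H.hfree _ (τ⁻¹ * σ : E).2 v hv h5
    have h8 : τ⁻¹ * σ = 1 := Subtype.ext h7
    exact (inv_mul_eq_one.mp h8).symm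
  simp only [mul_ite, mul_zero]
  rw [← Finset.sum_filter, ← h1, Finset.sum_image (fun a _ b _ h => hinj h)]
  have h2 : ∀ σ ∈ (Finset.univ : Finset E), conj (F χ₀ ((σ : MulAut A) v)) * (Nat.card A : ℂ) =
      (Nat.card A : ℂ) * conj (F χ₀ v) := by
    intro σ _
    rw [H.inv χ₀ hχ₀ σ σ.2 v hv]
    ring
  rw [Finset.sum_congr rfl h2, Finset.sum_const, Finset.card_univ, nsmul_eq_mul]
  ring

open Classical in
/-- **The inversion formula for the values on the singular elements.** -/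
theorem inv_of_lat {M : Ideal AlgInt} [hMp : M.IsPrime] (hM : IsPModular p M) {B : Set (IrrCharacter G)} (hB : IsPBlock M B)
    (H : LatHyp p (Finset.univ.filter (· ∈ B)) F E) (N : NF (Finset.univ.filter (· ∈ B)) F E X a s₀ y)
    (hreg : ∀ v : A, v ≠ 1 → ∀ g : G, ¬ p ∣ orderOf g → gam (Finset.univ.filter (· ∈ B)) F v g = 0) {m : ℕ}
    (hcount : Nat.card B = blockRank p B + m) (hm : m * Nat.card E = Nat.card A - 1) (χ₀ : IrrCharacter G)
    (hχ₀ : χ₀ ∈ (Finset.univ.filter (· ∈ B) : Finset (IrrCharacter G))) (g : G) (hg : p ∣ orderOf g) :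
    (χ₀ : G → ℂ) g = ((Nat.card E : ℂ) * (Nat.card A : ℂ))⁻¹ *
      ∑ v ∈ (Finset.univ.erase 1 : Finset A), F χ₀ v * gam (Finset.univ.filter (· ∈ B)) F v g := by
  set S : Finset (IrrCharacter G) := Finset.univ.filter (· ∈ B) with hS
  haveI : Finite (A →* ℂˣ) := Cfsg.Agent.Lib.Blocks.AbFrob.finite_dual H.hc
  letI : Fintype (A →* ℂˣ) := Fintype.ofFinite _
  letI iE : Fintype E := Fintype.ofFinite _
  have hEc : Nat.card E = Fintype.card E := Nat.card_eq_fintype_card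
  obtain ⟨R, hRne, hRu, hRc⟩ := exists_dual_reps H
  have hRm : R.card = m := by
    have hEpos : 0 < Fintype.card E := Fintype.card_pos
    have h1 : R.card * Fintype.card E = m * Fintype.card E := by
      rw [hRc, ← hEc, hm]
    exact Nat.eq_of_mul_eq_mul_right hEpos h1
  have hW0 : ∀ (j : A →* ℂˣ) (t : A → G → ℂ) (b : IrrCharacter G → ℂ),
      (∀ v : A, v ≠ 1 → ∑ χ ∈ S, conj (F χ v) * b χ = 0) → ∑ χ ∈ S, cc F χ j * b χ = 0 := by
    intro j _ b hb
    have h1 : ∀ χ ∈ S, cc F χ j * b χ = (Nat.card A : ℂ)⁻¹ * ∑ v ∈ (Finset.univ.erase 1 : Finset A),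
        (((j v : ℂˣ) : ℂ) - 1) * (conj (F χ v) * b χ) := by
      intro χ _
      rw [cc_def, mul_assoc, Finset.sum_mul]
      congr 1
      refine Finset.sum_congr rfl fun v _ => ?_
      ring
    rw [Finset.sum_congr rfl h1, ← Finset.mul_sum, Finset.sum_comm]
    apply mul_eq_zero_of_right
    refine Finset.sum_eq_zero fun v hv => ?_
    rw [← Finset.mul_sum, hb v (Finset.ne_of_mem_erase hv), mul_zero]
  set K : ℂ := ((Nat.card E : ℂ) * (Nat.card A : ℂ))⁻¹ with hK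
  have hA0 : (Nat.card A : ℂ) ≠ 0 := Nat.cast_ne_zero.mpr Nat.card_pos.ne'
  have hE0 : (Nat.card E : ℂ) ≠ 0 := Nat.cast_ne_zero.mpr Nat.card_pos.ne'
  have hKconj : conj K = K := by
    rw [hK, map_inv₀, map_mul, map_natCast, map_natCast]
  let d : IrrCharacter G → ℂ := fun χ => (if χ = χ₀ then 1 else 0) -
    K * ∑ v ∈ (Finset.univ.erase 1 : Finset A), F χ₀ v * conj (F χ v)
  have hconjd : ∀ χ, conj (d χ) = (if χ = χ₀ then 1 else 0) -
      K * ∑ v ∈ (Finset.univ.erase 1 : Finset A), conj (F χ₀ v) * F χ v := by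
    intro χ
    simp only [d, map_sub, map_mul, map_sum, hKconj, Complex.conj_conj]
    congr 1
    split_ifs <;> simp
  have hperv : ∀ v : A, v ≠ 1 → ∑ χ ∈ S, conj (F χ v) * conj (d χ) = 0 := by
    intro v hv
    simp only [hconjd, mul_sub, Finset.sum_sub_distrib]
    have h1 : ∑ χ ∈ S, conj (F χ v) * (if χ = χ₀ then (1 : ℂ) else 0) = conj (F χ₀ v) := by
      simp only [mul_ite, mul_one, mul_zero]
      rw [Finset.sum_ite_eq' S χ₀, if_pos hχ₀]
    have h2 : ∑ χ ∈ S, conj (F χ v) * (K * ∑ u ∈ (Finset.univ.erase 1 : Finset A), conj (F χ₀ u) * F χ u) =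
        K * ∑ u ∈ (Finset.univ.erase 1 : Finset A), conj (F χ₀ u) * ∑ χ ∈ S, F χ u * conj (F χ v) := by
      simp only [Finset.mul_sum]
      rw [Finset.sum_comm]
      refine Finset.sum_congr rfl fun u _ => Finset.sum_congr rfl fun χ _ => ?_
      ring
    have h3 : ∑ u ∈ (Finset.univ.erase 1 : Finset A), conj (F χ₀ u) * ∑ χ ∈ S, F χ u * conj (F χ v) =
        ∑ u ∈ (Finset.univ.erase 1 : Finset A), conj (F χ₀ u) * (if ∃ σ ∈ E, σ u = v then (Nat.card A : ℂ) else 0) :=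
      Finset.sum_congr rfl fun u hu => by rw [H.orth u v (Finset.ne_of_mem_erase hu) hv]
    rw [h1, h2, h3, sum_orbit H hχ₀ hv, hK, ← hEc]
    field_simp
    ring
  have hv := Cfsg.Agent.Lib.Dade.vanish_of_orth hM hB R (fun φ χ => cc F χ φ) y
    (fun j hj => (Finset.mem_filter.mp (N.mem j (hRne j hj)).1).2)
    (fun j hj => by
      have h1 : (s₀ : ℂ) ≠ 0 := by
        rcases N.sgn₀ with h | h <;> rw [h] <;> norm_num
      constructor
      · rw [N.ccY j (hRne j hj) j (hRne j hj), if_pos ⟨1, E.one_mem, by ext b; simp⟩]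
        exact h1
      · intro k hk hkj
        rw [N.ccY j (hRne j hj) k (hRne k hk), if_neg]
        intro h
        exact hkj (hRu j hj k hk h).symm)
    (fun j _ g' hg' => hW0 j (fun _ _ => 0) _ fun v hv => hreg v hv g' hg')
    (by rw [hcount, hRm])
    d
    (fun j _ => hW0 j (fun _ _ => 0) _ hperv)
    g hg
  have h5 : ∑ χ ∈ S, d χ * (χ : G → ℂ) g = (χ₀ : G → ℂ) g -
      K * ∑ v ∈ (Finset.univ.erase 1 : Finset A), F χ₀ v * gam S F v g := by
    simp only [d, sub_mul, Finset.sum_sub_distrib, gam]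
    congr 1
    · simp only [ite_mul, one_mul, zero_mul]
      rw [Finset.sum_ite_eq' S χ₀, if_pos hχ₀]
    · simp only [Finset.mul_sum, Finset.sum_mul]
      rw [Finset.sum_comm]
      refine Finset.sum_congr rfl fun u _ => Finset.sum_congr rfl fun χ _ => ?_
      ring
  rw [h5] at hv
  exact sub_eq_zero.mp hv

end Inv

end Cfsg.Agent.Lib.Dade
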