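import Mathlib
import Cfsg.Agent.Lib.Dade.PE

/-!
# Blocks with cyclic defect groups: the perfect isometry between two blocks with the same data
-/

set_option autoImplicit false
set_option linter.unusedSectionVars false
set_option linter.style.haveILetI false

namespace Cfsg.Agent.Lib.Dade

open Cfsg Cfsg.Agent.Lib.Blocks.Local Cfsg.Agent.Lib.Blocks.Central
open Cfsg.Agent.Lib.Blocks.AbFree
open ComplexConjugate

universe u v

section Aut

variable {A : Type*} [Group A] [Finite A] {p : ℕ} [hp : Fact p.Prime]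

/-- A subgroup of the automorphism group of a cyclic `p`-group, of order dividing `p - 1`, is determined by its order. -/
theorem mem_of_pow_eq_one' (hcyc : IsCyclic A) {a : ℕ} (ha : Nat.card A = p ^ a) {E : Subgroup (MulAut A)} {e : ℕ}
    (hE : Nat.card E = e) (hep : e ∣ p - 1) {σ : MulAut A} (hσ : σ ^ e = 1) : σ ∈ E := by
  classical
  have he0 : 0 < e := by
    rw [← hE]
    exact Nat.card_pos
  by_cases hp2 : p = 2
  · have h1 : e = 1 := by
      subst hp2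
      simpa using hep
    rw [h1, pow_one] at hσ
    rw [hσ]
    exact E.one_mem
  haveI hAc : IsCyclic (ZMod (p ^ a))ˣ := ZMod.isCyclic_units_of_prime_pow p hp.out hp2 a
  have hiso : MulAut A ≃* (ZMod (p ^ a))ˣ := by
    rw [← ha]
    exact IsCyclic.mulAutMulEquiv A
  haveI hC : IsCyclic (MulAut A) := isCyclic_of_surjective hiso.symm hiso.symm.surjective
  letI : Fintype (MulAut A) := Fintype.ofFinite _
  have h1 := IsCyclic.card_pow_eq_one_le (α := MulAut A) he0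
  have h2 : (Finset.univ.filter (· ∈ E)) ⊆ (Finset.univ.filter (fun x : MulAut A => x ^ e = 1)) := by
    intro x hx
    have hx' : x ∈ E := (Finset.mem_filter.mp hx).2
    refine Finset.mem_filter.mpr ⟨Finset.mem_univ _, ?_⟩
    have h3 := pow_card_eq_one' (x := (⟨x, hx'⟩ : E))
    rw [hE] at h3
    exact congrArg Subtype.val h3
  have h3 : (Finset.univ.filter (· ∈ E)).card = e := by
    rw [← hE, Nat.card_eq_fintype_card, Fintype.card_subtype]
  have h4 := Finset.eq_of_subset_of_card_le h2 (by rw [h3]; exact h1)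
  have h5 : σ ∈ (Finset.univ.filter (fun x : MulAut A => x ^ e = 1)) := Finset.mem_filter.mpr ⟨Finset.mem_univ _, hσ⟩
  rw [← h4] at h5
  exact (Finset.mem_filter.mp h5).2

end Aut

section Perfect

variable {G₁ : Type u} [Group G₁] [Fintype G₁] {A₁ : Type u} [Group A₁] [Fintype A₁]
  {G₂ : Type v} [Group G₂] [Fintype G₂] {A₂ : Type v} [Group A₂] [Fintype A₂] {p : ℕ} [hp : Fact p.Prime]
  {M : Ideal AlgInt} [hMp : M.IsPrime]
  {F₁ : IrrCharacter G₁ → A₁ → ℂ} {E₁ : Subgroup (MulAut A₁)} {X₁ : Finset (IrrCharacter G₁)} {a₁ : IrrCharacter G₁ → ℤ}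
  {s₁ : ℤ} {y₁ : (A₁ →* ℂˣ) → IrrCharacter G₁}
  {F₂ : IrrCharacter G₂ → A₂ → ℂ} {E₂ : Subgroup (MulAut A₂)} {X₂ : Finset (IrrCharacter G₂)} {a₂ : IrrCharacter G₂ → ℤ}
  {s₂ : ℤ} {y₂ : (A₂ →* ℂˣ) → IrrCharacter G₂}

open Classical in
/-- **The perfect isometry between two blocks with the same data.** -/
theorem exists_perfect (hM : IsPModular p M) {B : Set (IrrCharacter G₁)} {c : Set (IrrCharacter G₂)}
    (hcyc₁ : IsCyclic A₁) (hcyc₂ : IsCyclic A₂) {a e : ℕ} (hq₁ : Nat.card A₁ = p ^ a) (hq₂ : Nat.card A₂ = p ^ a)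
    (he₁ : Nat.card E₁ = e) (he₂ : Nat.card E₂ = e) (hep : e ∣ p - 1)
    (H₁ : LatHyp p (Finset.univ.filter (· ∈ B)) F₁ E₁) (N₁ : NF (Finset.univ.filter (· ∈ B)) F₁ E₁ X₁ a₁ s₁ y₁)
    (C₁ : ColData p M (Finset.univ.filter (· ∈ B)) F₁ E₁)
    (H₂ : LatHyp p (Finset.univ.filter (· ∈ c)) F₂ E₂) (N₂ : NF (Finset.univ.filter (· ∈ c)) F₂ E₂ X₂ a₂ s₂ y₂)
    (C₂ : ColData p M (Finset.univ.filter (· ∈ c)) F₂ E₂) :
    ∃ (I : IrrCharacter G₂ → IrrCharacter G₁) (ε : IrrCharacter G₂ → ℤ), IsPerfectIsometry p M c B I ε ∧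
      ∀ η ∈ c, η ∉ X₂ → ε η = s₁ * s₂ := by
  have he0 : 0 < e := by
    rw [← he₁]
    exact Nat.card_pos
  have hpe : ¬ p ∣ e := by
    intro h
    have h1 := Nat.dvd_trans h hep
    have h2 := Nat.le_of_dvd (by have := hp.out.two_le; omega) h1
    have := hp.out.two_le
    omega
  let ρ : A₁ ≃* A₂ := mulEquivOfCyclicCardEq (hq₁.trans hq₂.symm)
  have hE₁ : ∀ σ ∈ E₁, ρ.symm.trans (MulEquiv.trans σ ρ) ∈ E₂ := by
    intro σ hσ
    refine mem_of_pow_eq_one' hcyc₂ hq₂ he₂ hep ?_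
    have h3 := pow_card_eq_one' (x := (⟨σ, hσ⟩ : E₁))
    rw [he₁] at h3
    have h4 : σ ^ e = 1 := congrArg Subtype.val h3
    have h5 : MulAut.congr ρ (σ ^ e) = 1 := by rw [h4, map_one]
    rw [map_pow] at h5
    exact h5
  have hE₂ : ∀ τ ∈ E₂, ρ.trans (MulEquiv.trans τ ρ.symm) ∈ E₁ := by
    intro τ hτ
    refine mem_of_pow_eq_one' hcyc₁ hq₁ he₁ hep ?_
    have h3 := pow_card_eq_one' (x := (⟨τ, hτ⟩ : E₂))
    rw [he₂] at h3
    have h4 : τ ^ e = 1 := congrArg Subtype.val h3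
    have h5 : MulAut.congr ρ.symm (τ ^ e) = 1 := by rw [h4, map_one]
    rw [map_pow] at h5
    exact h5
  obtain ⟨I, ε, hbij, hsgn, hmat, hY⟩ := exists_matching H₁ N₁ H₂ N₂ ρ hE₁ hE₂ (he₁.trans he₂.symm)
  have hcoe₁ : ((Finset.univ.filter (· ∈ B) : Finset (IrrCharacter G₁)) : Set (IrrCharacter G₁)) = B := by
    ext χ
    simp
  have hcoe₂ : ((Finset.univ.filter (· ∈ c) : Finset (IrrCharacter G₂)) : Set (IrrCharacter G₂)) = c := by
    ext χ
    simp
  rw [hcoe₁, hcoe₂] at hbij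
  have hmemc : ∀ η ∈ c, η ∈ (Finset.univ.filter (· ∈ c) : Finset (IrrCharacter G₂)) := fun η hη =>
    Finset.mem_filter.mpr ⟨Finset.mem_univ _, hη⟩
  refine ⟨I, ε, ⟨hbij, fun η hη => hsgn η (hmemc η hη), ?_⟩, fun η hη hX => hY η (hmemc η hη) hX⟩
  exact isPerfectFun_of_colData hM C₁ C₂ ρ (he₁.trans he₂.symm) (by rwa [he₁]) hbij (fun η hη => hsgn η (hmemc η hη))
    (fun η hη v hv => hmat η (hmemc η hη) v hv)

end Perfect

end Cfsg.Agent.Lib.Dade
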