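import Mathlib
import Cfsg.Agent.Lib.Dade.PF

/-!
# Blocks with cyclic defect groups: the column data of a Frobenius-type group
-/

set_option autoImplicit false
set_option linter.unusedSectionVars false
set_option linter.style.haveILetI false

namespace Cfsg.Agent.Lib.Dade

open Cfsg Cfsg.Agent.Lib.Blocks.Local Cfsg.Agent.Lib.Blocks.Central
open Cfsg.Agent.Lib.Blocks.AbFree
open Cfsg.Agent.Lib.Char.Virtual
open ComplexConjugate

universe v

section LSide

variable {L : Type v} [Group L] [Fintype L] {p : ℕ} [hp : Fact p.Prime] {Q : Subgroup L} [hN : Q.Normal]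

/-- The automorphisms of `Q` induced by the group. -/
noncomputable abbrev autQ (Q : Subgroup L) [Q.Normal] : Subgroup (MulAut Q) := (MulAut.conjNormal (G := L) (H := Q)).range

lemma isConj_iff_autQ (u v : Q) : IsConj (u : L) (v : L) ↔ ∃ σ ∈ autQ Q, σ u = v := by
  rw [isConj_iff]
  constructor
  · rintro ⟨g, hg⟩
    exact ⟨MulAut.conjNormal g, ⟨g, rfl⟩, Subtype.ext hg⟩
  · rintro ⟨_, ⟨g, rfl⟩, hg⟩
    exact ⟨g, congrArg Subtype.val hg⟩

lemma ker_conjNormal (hC : Subgroup.centralizer (Q : Set L) = Q) : (MulAut.conjNormal (G := L) (H := Q)).ker = Q := by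
  ext x
  rw [MonoidHom.mem_ker]
  conv_rhs => rw [← hC]
  rw [Subgroup.mem_centralizer_iff]
  constructor
  · intro h v hv
    have h1 := congrArg (fun σ : MulAut Q => ((σ ⟨v, hv⟩ : Q) : L)) h
    simp only [MulAut.conjNormal_apply, MulAut.one_apply] at h1
    calc v * x = x * v * x⁻¹ * x := by rw [h1]
      _ = x * v := by group
  · intro h
    ext v
    simp only [MulAut.conjNormal_apply, MulAut.one_apply]
    rw [← h v v.2]
    group

lemma card_autQ (hC : Subgroup.centralizer (Q : Set L) = Q) {e : ℕ} (hL : Nat.card L = Nat.card Q * e) :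
    Nat.card (autQ Q) = e := by
  rw [autQ, ← Subgroup.index_ker, ker_conjNormal hC]
  have h1 := Q.card_mul_index
  rw [hL] at h1
  exact Nat.eq_of_mul_eq_mul_left Nat.card_pos h1

lemma mem_of_fix (hC : Subgroup.centralizer (Q : Set L) = Q)
    (hfree : ∀ σ ∈ autQ Q, ∀ v : Q, v ≠ 1 → σ v = v → σ = 1) {g v : L} (hv : v ∈ Q) (hv1 : v ≠ 1) (h : g * v * g⁻¹ = v) :
    g ∈ Q := by
  have h1 : MulAut.conjNormal g (⟨v, hv⟩ : Q) = ⟨v, hv⟩ := Subtype.ext h
  have h2 := hfree _ ⟨g, rfl⟩ ⟨v, hv⟩ (fun h0 => hv1 (congrArg Subtype.val h0)) h1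
  rw [← ker_conjNormal hC, MonoidHom.mem_ker]
  exact h2

lemma comm_of_cyclic (hcyc : IsCyclic Q) (a b : Q) : a * b = b * a := by
  haveI : IsMulCommutative Q := IsCyclic.isMulCommutative
  exact IsMulCommutative.is_comm.comm _ _

lemma centralizer_singleton_eq (hcyc : IsCyclic Q) (hC : Subgroup.centralizer (Q : Set L) = Q)
    (hfree : ∀ σ ∈ autQ Q, ∀ v : Q, v ≠ 1 → σ v = v → σ = 1) {v : L} (hv : v ∈ Q) (hv1 : v ≠ 1) :
    Subgroup.centralizer ({v} : Set L) = Q := by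
  ext g
  rw [Subgroup.mem_centralizer_singleton_iff]
  constructor
  · intro h
    refine mem_of_fix hC hfree hv hv1 ?_
    rw [h]
    group
  · intro h
    exact congrArg Subtype.val (comm_of_cyclic hcyc (⟨g, h⟩ : Q) ⟨v, hv⟩)

lemma mem_of_singular (hC : Subgroup.centralizer (Q : Set L) = Q) (hfree : ∀ σ ∈ autQ Q, ∀ v : Q, v ≠ 1 → σ v = v → σ = 1)
    {e : ℕ} (hL : Nat.card L = Nat.card Q * e) (hpe : ¬ p ∣ e) {g : L} (hg : p ∣ orderOf g) : g ∈ Q := by
  have hord : orderOf g ≠ 0 := (orderOf_pos g).ne'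
  obtain ⟨k, w, hpw, hw⟩ := Nat.exists_eq_pow_mul_and_not_dvd hord p hp.out.ne_one
  have hk : k ≠ 0 := by
    rintro rfl
    rw [pow_zero, one_mul] at hw
    rw [hw] at hg
    exact hpw hg
  have hu1 : g ^ w ≠ 1 := by
    intro h
    have h1 := orderOf_dvd_of_pow_eq_one h
    rw [hw] at h1
    have hw0 : 0 < w := Nat.pos_of_ne_zero (fun h0 => hpw (h0 ▸ dvd_zero p))
    have h2 := Nat.le_of_dvd hw0 h1
    have h3 : 2 ≤ p ^ k := by
      calc 2 ≤ p := hp.out.two_le
        _ ≤ p ^ k := Nat.le_self_pow hk p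
    nlinarith
  have hup : (g ^ w) ^ (p ^ k) = 1 := by
    rw [← pow_mul, mul_comm, ← hw, pow_orderOf_eq_one]
  have hσ1 : (MulAut.conjNormal (G := L) (H := Q)) (g ^ w) ^ (p ^ k) = 1 := by
    rw [← map_pow, hup, map_one]
  have hσ2 : (MulAut.conjNormal (G := L) (H := Q)) (g ^ w) ^ e = 1 := by
    have h3 := pow_card_eq_one' (x := (⟨_, ⟨g ^ w, rfl⟩⟩ : autQ Q))
    rw [card_autQ hC hL] at h3
    exact congrArg Subtype.val h3
  have hcop : Nat.Coprime (p ^ k) e := Nat.Coprime.pow_left _ ((Nat.Prime.coprime_iff_not_dvd hp.out).mpr hpe)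
  have hσ : (MulAut.conjNormal (G := L) (H := Q)) (g ^ w) = 1 := by
    have h4 := Nat.eq_one_of_dvd_coprimes hcop (orderOf_dvd_of_pow_eq_one hσ1) (orderOf_dvd_of_pow_eq_one hσ2)
    exact orderOf_eq_one_iff.mp h4
  have huQ : g ^ w ∈ Q := by
    rw [← ker_conjNormal hC, MonoidHom.mem_ker]
    exact hσ
  refine mem_of_fix hC hfree huQ hu1 ?_
  rw [(Commute.pow_right (Commute.refl g) w).eq]
  group

/-- The degree of a character is bounded by the order of the group. -/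
lemma deg_sq_le (η : IrrCharacter L) : charDegree (η : L → ℂ) ^ 2 ≤ Nat.card L := by
  have h1 := Cfsg.Agent.Lib.Char.CompleteCor.sum_sq_degrees (G := L)
  have h2 : ((∑ χ : IrrCharacter L, charDegree (χ : L → ℂ) ^ 2 : ℕ) : ℂ) = (Nat.card L : ℂ) := by
    rw [← h1]
    push_cast
    refine Finset.sum_congr rfl fun χ _ => ?_
    rw [Cfsg.Agent.Lib.Blocks.RegInt.charDegree_cast]
  have h3 : ∑ χ : IrrCharacter L, charDegree (χ : L → ℂ) ^ 2 = Nat.card L := by exact_mod_cast h2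
  rw [← h3]
  exact Finset.single_le_sum (f := fun χ : IrrCharacter L => charDegree (χ : L → ℂ) ^ 2) (fun _ _ => Nat.zero_le _)
    (Finset.mem_univ η)

/-- A character which is constant on the nonidentity elements of `Q`, and nontrivial on `Q`, has large degree. -/
lemma deg_ge_of_const [Fintype Q] (hcQ : ∀ a b : Q, a * b = b * a) (η : IrrCharacter L) {c : ℂ}
    (hc : ∀ v : Q, v ≠ 1 → (η : L → ℂ) v = c) (hne : c ≠ (η : L → ℂ) 1) : Nat.card Q - 1 ≤ charDegree (η : L → ℂ) := by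
  classical
  haveI : Finite (Q →* ℂˣ) := Cfsg.Agent.Lib.Blocks.AbFrob.finite_dual hcQ
  letI : Fintype (Q →* ℂˣ) := Fintype.ofFinite _
  have hcardD : Fintype.card (Q →* ℂˣ) = Nat.card Q := by
    rw [← Nat.card_eq_fintype_card]
    exact Cfsg.Agent.Lib.Blocks.AbFrob.card_dual hcQ
  have hchar : IsCharacter Q (fun v : Q => (η : L → ℂ) v) :=
    Cfsg.Agent.Lib.Char.Basic.isCharacter_restrict (Cfsg.Agent.Lib.Char.Basic.isCharacter_of_isIrrCharacter η.2) Q
  let ch : (Q →* ℂˣ) → IrrCharacter Q := fun φ => ⟨fun b => ((φ b : ℂˣ) : ℂ), Cfsg.Agent.Lib.Char.LinearChars.isIrr_of_hom φ⟩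
  have hn := fun φ => Cfsg.Agent.Lib.Char.Ortho.exists_nat_classInner hchar (ch φ)
  choose n hn using hn
  have hA0 : (Nat.card Q : ℂ) ≠ 0 := Nat.cast_ne_zero.mpr Nat.card_pos.ne'
  -- the value for a nontrivial character
  have hval : ∀ φ : Q →* ℂˣ, φ ≠ 1 → (n φ : ℂ) = (Nat.card Q : ℂ)⁻¹ * ((η : L → ℂ) 1 - c) := by
    intro φ hφ
    rw [← hn φ]
    have h0 : classInner (fun v : Q => (1 : ℂ)) (fun b => ((φ b : ℂˣ) : ℂ)) = 0 := by
      have h1 := Cfsg.Agent.Lib.Char.Ortho.classInner_irr_of_ne (Cfsg.Agent.Lib.Char.LinearChars.isIrr_of_hom (1 : Q →* ℂˣ))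
        (Cfsg.Agent.Lib.Char.LinearChars.isIrr_of_hom φ) (fun h => hφ ?_)
      · simpa using h1
      · ext b
        exact (congrFun h b).symm
    have h2 : ∑ v : Q, conj (((φ v : ℂˣ) : ℂ)) = 0 := by
      rw [classInner] at h0
      have h3 := (mul_eq_zero.mp h0).resolve_left (inv_ne_zero hA0)
      simpa using h3
    rw [← Finset.add_sum_erase _ _ (Finset.mem_univ (1 : Q))] at h2
    simp only [map_one, Units.val_one, map_one] at h2
    have h4 : ∑ v ∈ (Finset.univ.erase 1 : Finset Q), conj (((φ v : ℂˣ) : ℂ)) = -1 := by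
      linear_combination h2
    simp only [classInner, ch]
    rw [← Finset.add_sum_erase _ _ (Finset.mem_univ (1 : Q))]
    simp only [map_one, Units.val_one, mul_one, OneMemClass.coe_one]
    congr 1
    have h5 : ∀ v ∈ (Finset.univ.erase 1 : Finset Q), (η : L → ℂ) v * conj (((φ v : ℂˣ) : ℂ)) = c * conj (((φ v : ℂˣ) : ℂ)) :=
      fun v hv => by rw [hc v (Finset.ne_of_mem_erase hv)]
    rw [Finset.sum_congr rfl h5, ← Finset.mul_sum, h4]
    ring
  have hnpos : ∀ φ : Q →* ℂˣ, φ ≠ 1 → 1 ≤ n φ := by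
    intro φ hφ
    by_contra h0
    have h1 : n φ = 0 := by omega
    have h2 := hval φ hφ
    rw [h1, Nat.cast_zero] at h2
    have h3 := (mul_eq_zero.mp h2.symm).resolve_left (inv_ne_zero hA0)
    exact hne (sub_eq_zero.mp h3).symm
  -- the degree
  have hdeg : charDegree (η : L → ℂ) = ∑ φ : Q →* ℂˣ, n φ := by
    have h1 := Cfsg.Agent.Lib.Blocks.AbFrob.inversion hcQ (fun v : Q => (η : L → ℂ) v) 1
    have h2 : ((charDegree (η : L → ℂ) : ℕ) : ℂ) = ((∑ φ : Q →* ℂˣ, n φ : ℕ) : ℂ) := by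
      rw [Cfsg.Agent.Lib.Blocks.RegInt.charDegree_cast]
      simp only [OneMemClass.coe_one] at h1
      rw [h1]
      push_cast
      refine Finset.sum_congr rfl fun φ _ => ?_
      have h3 := hn φ
      simp only [ch] at h3
      rw [h3]
      simp
    exact_mod_cast h2
  rw [hdeg]
  have h5 : (Finset.univ.erase (1 : Q →* ℂˣ)).card = Nat.card Q - 1 := by
    rw [Finset.card_erase_of_mem (Finset.mem_univ _), Finset.card_univ, hcardD]
  calc Nat.card Q - 1 = ∑ φ ∈ Finset.univ.erase (1 : Q →* ℂˣ), 1 := by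
        rw [Finset.sum_const, h5]
        simp
    _ ≤ ∑ φ ∈ Finset.univ.erase (1 : Q →* ℂˣ), n φ := Finset.sum_le_sum fun φ hφ => hnpos φ (Finset.ne_of_mem_erase hφ)
    _ ≤ ∑ φ : Q →* ℂˣ, n φ := Finset.sum_le_sum_of_subset (Finset.subset_univ _)

end LSide

end Cfsg.Agent.Lib.Dade
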