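import Mathlib
import Cfsg.Agent.Lib.Dade.PG

/-!
# Blocks with cyclic defect groups: the column data of a Frobenius-type group, continued
-/

set_option autoImplicit false
set_option linter.unusedSectionVars false
set_option linter.style.haveILetI false

namespace Cfsg.Agent.Lib.Dade

open Cfsg Cfsg.Agent.Lib.Blocks.Local Cfsg.Agent.Lib.Blocks.Central
open Cfsg.Agent.Lib.Blocks.AbFree
open Cfsg.Agent.Lib.Char.Virtual
open ComplexConjugate

universe v

section Lat

variable {L : Type v} [Group L] [Fintype L] {p : ℕ} [hp : Fact p.Prime] {Q : Subgroup L} [hN : Q.Normal] [Fintype Q]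

lemma card_centralizer_of_isConj (hcyc : IsCyclic Q) (hC : Subgroup.centralizer (Q : Set L) = Q)
    (hfree : ∀ σ ∈ autQ Q, ∀ v : Q, v ≠ 1 → σ v = v → σ = 1) {v : L} (hv : v ∈ Q) (hv1 : v ≠ 1) {g : L} (hc : IsConj g v) :
    Nat.card (Subgroup.centralizer ({g} : Set L)) = Nat.card Q := by
  obtain ⟨x, rfl⟩ := isConj_iff.mp hc.symm
  rw [Cfsg.Agent.S0916.card_centralizer_conj, centralizer_singleton_eq hcyc hC hfree hv hv1]

open Classical in
theorem sum_frob (hcyc : IsCyclic Q) (hC : Subgroup.centralizer (Q : Set L) = Q)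
    (hfree : ∀ σ ∈ autQ Q, ∀ v : Q, v ≠ 1 → σ v = v → σ = 1) {c : Set (IrrCharacter L)} (hcu : ∀ η, η ∈ c) (g : L) {v : L} (hv : v ∈ Q)
    (hv1 : v ≠ 1) :
    ∑ χ ∈ Finset.univ.filter (· ∈ c), (χ : L → ℂ) g * conj ((χ : L → ℂ) v) = if IsConj g v then (Nat.card Q : ℂ) else 0 := by
  have hS : (Finset.univ.filter (· ∈ c) : Finset (IrrCharacter L)) = Finset.univ :=
    Finset.filter_true_of_mem fun η _ => hcu η
  rw [hS]
  by_cases hc : IsConj g v
  · rw [if_pos hc, Cfsg.Agent.Lib.Char.CompleteCor.column_orth_conj hc, card_centralizer_of_isConj hcyc hC hfree hv hv1 hc]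
  · rw [if_neg hc, Cfsg.Agent.Lib.Char.CompleteCor.column_orth_not_conj hc]

open Classical in
/-- **The lattice hypotheses for a Frobenius-type group.** -/
theorem lat_of_frob (hcyc : IsCyclic Q) {a : ℕ} (hQc : Nat.card Q = p ^ a) (hC : Subgroup.centralizer (Q : Set L) = Q)
    {e : ℕ} (hL : Nat.card L = Nat.card Q * e) (heq : e < Nat.card Q)
    (hfree : ∀ σ ∈ autQ Q, ∀ v : Q, v ≠ 1 → σ v = v → σ = 1) {c : Set (IrrCharacter L)} (hcu : ∀ η, η ∈ c) :
    LatHyp p (Finset.univ.filter (· ∈ c)) (fun η (v : Q) => (η : L → ℂ) v) (autQ Q) := by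
  have hv1 : ∀ v : Q, v ≠ 1 → (v : L) ≠ 1 := fun v hv h => hv (Subtype.ext h)
  refine ⟨comm_of_cyclic hcyc, IsPGroup.of_card hQc, hfree, ⟨1, ?_, fun χ _ => ⟨fun v : Q => (χ : L → ℂ) v, ?_, fun v _ => ?_⟩⟩,
    fun χ _ σ hσ v _ => ?_, fun u v hu hv => ?_, fun v hv => ?_, fun χ _ v _ => ?_, fun χ _ => ?_⟩
  · intro h
    have h1 := Int.le_of_dvd one_pos h
    have h2 : (2 : ℤ) ≤ p := by exact_mod_cast hp.out.two_le
    omega
  · exact isGeneralized_of_isCharacter
      (Cfsg.Agent.Lib.Char.Basic.isCharacter_restrict (Cfsg.Agent.Lib.Char.Basic.isCharacter_of_isIrrCharacter χ.2) Q)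
  · simp
  · obtain ⟨g, rfl⟩ := hσ
    show (χ : L → ℂ) (g * v * g⁻¹) = _
    rw [isClassFunction_of_irr χ.2]
  · rw [sum_frob hcyc hC hfree hcu u v.2 (hv1 v hv)]
    by_cases h : IsConj (u : L) (v : L)
    · rw [if_pos h, if_pos ((isConj_iff_autQ u v).mp h)]
    · rw [if_neg h, if_neg (fun h' => h ((isConj_iff_autQ u v).mpr h'))]
  · have h0 := sum_frob hcyc hC hfree hcu 1 v.2 (hv1 v hv)
    rw [if_neg (fun hc => hv1 v hv (isConj_one_right.mp hc))] at h0
    exact h0
  · exact isIntegral_irr χ.2 _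
  · -- a nonzero value
    by_contra hcon
    push Not at hcon
    have hchar : IsCharacter Q (fun v : Q => (χ : L → ℂ) v) :=
      Cfsg.Agent.Lib.Char.Basic.isCharacter_restrict (Cfsg.Agent.Lib.Char.Basic.isCharacter_of_isIrrCharacter χ.2) Q
    let ch : IrrCharacter Q := ⟨fun b => (((1 : Q →* ℂˣ) b : ℂˣ) : ℂ), Cfsg.Agent.Lib.Char.LinearChars.isIrr_of_hom 1⟩
    obtain ⟨n, hn⟩ := Cfsg.Agent.Lib.Char.Ortho.exists_nat_classInner hchar ch
    have hA0 : (Nat.card Q : ℂ) ≠ 0 := Nat.cast_ne_zero.mpr Nat.card_pos.ne'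
    have h1 : (χ : L → ℂ) 1 = (Nat.card Q : ℂ) * n := by
      rw [← hn]
      simp only [classInner, ch]
      rw [mul_inv_cancel_left₀ hA0, Finset.sum_eq_single (1 : Q)]
      · simp
      · intro v _ hv
        rw [hcon v hv, zero_mul]
      · simp
    have h2 : charDegree (χ : L → ℂ) = Nat.card Q * n := by
      have h3 : ((charDegree (χ : L → ℂ) : ℕ) : ℂ) = ((Nat.card Q * n : ℕ) : ℂ) := by
        rw [Cfsg.Agent.Lib.Blocks.RegInt.charDegree_cast, h1]
        push_cast
        rfl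
      exact_mod_cast h3
    have hd0 : charDegree (χ : L → ℂ) ≠ 0 := Cfsg.Agent.Lib.Blocks.RegInt.charDegree_ne_zero χ
    have hn0 : n ≠ 0 := by
      rintro rfl
      rw [mul_zero] at h2
      exact hd0 h2
    have h4 := deg_sq_le χ
    rw [h2, hL] at h4
    have hq0 : 0 < Nat.card Q := Nat.card_pos
    have hn1 : 1 ≤ n := Nat.one_le_iff_ne_zero.mpr hn0
    nlinarith [Nat.mul_le_mul_left (Nat.card Q) hn1]

open Classical in
/-- The column sums of a Frobenius-type group. -/
theorem colData_of_frob {M : Ideal AlgInt} [hMp : M.IsPrime] (hcyc : IsCyclic Q) {a : ℕ} (hQc : Nat.card Q = p ^ a)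
    (hC : Subgroup.centralizer (Q : Set L) = Q)
    {e : ℕ} (hL : Nat.card L = Nat.card Q * e) (hpe : ¬ p ∣ e)
    (hfree : ∀ σ ∈ autQ Q, ∀ v : Q, v ≠ 1 → σ v = v → σ = 1) {c : Set (IrrCharacter L)} (hcu : ∀ η, η ∈ c)
    (H : LatHyp p (Finset.univ.filter (· ∈ c)) (fun η (v : Q) => (η : L → ℂ) v) (autQ Q)) :
    ColData p M (Finset.univ.filter (· ∈ c)) (fun η (v : Q) => (η : L → ℂ) v) (autQ Q) := by
  have hv1 : ∀ v : Q, v ≠ 1 → (v : L) ≠ 1 := fun v hv h => hv (Subtype.ext h)
  have hgam : ∀ (v : Q), v ≠ 1 → ∀ g : L, gam (Finset.univ.filter (· ∈ c)) (fun η (v : Q) => (η : L → ℂ) v) v g =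
      if IsConj g (v : L) then (Nat.card Q : ℂ) else 0 := by
    intro v hv g
    rw [← sum_frob hcyc hC hfree hcu g v.2 (hv1 v hv), gam]
    exact Finset.sum_congr rfl fun χ _ => mul_comm _ _
  have hA0 : (Nat.card Q : ℂ) ≠ 0 := Nat.cast_ne_zero.mpr Nat.card_pos.ne'
  letI iE : Fintype (autQ Q) := Fintype.ofFinite _
  refine ⟨fun v hv g hg => ?_, fun v hv g => ?_, fun v hv g => ?_, fun χ₀ hχ₀ g hg => ?_⟩
  · rw [hgam v hv, if_neg]
    intro hc
    apply hg
    obtain ⟨x, hx⟩ := isConj_iff.mp hc.symm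
    rw [← hx, orderOf_conj'', Subgroup.orderOf_coe]
    have h1 : orderOf v ∣ p ^ a := by
      rw [← hQc]
      exact orderOf_dvd_natCard v
    obtain ⟨j, -, hj⟩ := (Nat.dvd_prime_pow hp.out).mp h1
    rw [hj]
    refine dvd_pow_self p ?_
    rintro rfl
    rw [pow_zero, orderOf_eq_one_iff] at hj
    exact hv hj
  · rw [hgam v hv]
    split_ifs
    · rw [div_self hA0]
      exact memLocalRing_one
    · rw [zero_div]
      exact memLocalRing_zero
  · rw [hgam v hv]
    split_ifs with hc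
    · rw [card_centralizer_of_isConj hcyc hC hfree v.2 (hv1 v hv) hc, div_self hA0]
      exact memLocalRing_one
    · rw [zero_div]
      exact memLocalRing_zero
  · have hgQ : g ∈ Q := mem_of_singular hC hfree hL hpe hg
    have hg1 : (⟨g, hgQ⟩ : Q) ≠ 1 := by
      intro h0
      have h1 : g = 1 := congrArg Subtype.val h0
      rw [h1, orderOf_one] at hg
      exact hp.out.one_lt.ne' (Nat.dvd_one.mp hg)
    have h1 : ∑ v ∈ (@Finset.erase Q (fun a b => Classical.propDecidable (a = b)) Finset.univ 1), (χ₀ : L → ℂ) v *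
        gam (Finset.univ.filter (· ∈ c)) (fun η (v : Q) => (η : L → ℂ) v) v g =
        ∑ v ∈ (@Finset.erase Q (fun a b => Classical.propDecidable (a = b)) Finset.univ 1), (χ₀ : L → ℂ) v *
          (if ∃ σ ∈ autQ Q, σ v = ⟨g, hgQ⟩ then (Nat.card Q : ℂ) else 0) := by
      refine Finset.sum_congr rfl fun v hv => ?_
      rw [hgam v (@Finset.ne_of_mem_erase Q (fun a b => Classical.propDecidable (a = b)) _ _ _ hv)]
      congr 1
      refine if_congr ?_ rfl rfl
      rw [isConj_comm]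
      exact isConj_iff_autQ v ⟨g, hgQ⟩
    have h2 := sum_orbit H hχ₀ hg1
    have h3 := congrArg (starRingEnd ℂ) h2
    simp only [map_sum, map_mul, Complex.conj_conj, map_natCast] at h3
    simp only [apply_ite (starRingEnd ℂ), map_natCast, map_zero] at h3
    have h5 : ∑ v ∈ (@Finset.erase Q (fun a b => Classical.propDecidable (a = b)) Finset.univ 1), (χ₀ : L → ℂ) v *
        (if ∃ σ ∈ autQ Q, σ v = ⟨g, hgQ⟩ then (Nat.card Q : ℂ) else 0) =
        (Fintype.card (autQ Q) : ℂ) * (Nat.card Q : ℂ) * (χ₀ : L → ℂ) g := by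
      rw [← h3]
    rw [h1, h5, ← Nat.card_eq_fintype_card]
    have hE0 : (Nat.card (autQ Q) : ℂ) ≠ 0 := Nat.cast_ne_zero.mpr Nat.card_pos.ne'
    field_simp

/-- **The number of irreducible characters of a Frobenius-type group.** -/
theorem card_irr_frob (hcyc : IsCyclic Q) (hC : Subgroup.centralizer (Q : Set L) = Q)
    (hfree : ∀ σ ∈ autQ Q, ∀ v : Q, v ≠ 1 → σ v = v → σ = 1) {e : ℕ} (hL : Nat.card L = Nat.card Q * e) {m : ℕ}
    (hm : m * e = Nat.card Q - 1) : Nat.card (IrrCharacter L) = e + m := by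
  classical
  have hcQ := comm_of_cyclic hcyc
  have hMA : ∀ σ τ : MulAut Q, σ * τ = τ * σ := by
    intro σ τ
    apply (IsCyclic.mulAutMulEquiv Q).injective
    rw [map_mul, map_mul, mul_comm]
  have hker : ∀ x : L, MulAut.conjNormal (G := L) (H := Q) x = 1 → x ∈ Q := fun x h => by
    rw [← ker_conjNormal hC, MonoidHom.mem_ker]
    exact h
  have hker' : ∀ x : L, x ∈ Q → MulAut.conjNormal (G := L) (H := Q) x = 1 := fun x h => by
    rw [← ker_conjNormal hC, MonoidHom.mem_ker] at h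
    exact h
  have hEab : ∀ x y : L, x * y * x⁻¹ * y⁻¹ ∈ Q := by
    intro x y
    apply hker
    rw [map_mul, map_mul, map_mul, map_inv, map_inv, hMA (MulAut.conjNormal x) (MulAut.conjNormal y)]
    group
  have hNg : ∀ g : L, g ∉ Q → Nat.card (Subgroup.centralizer ({g} : Set L)) = e := by
    intro g hg
    rw [← card_autQ hC hL]
    let ψ : Subgroup.centralizer ({g} : Set L) → autQ Q := fun x => ⟨MulAut.conjNormal (x : L), ⟨x, rfl⟩⟩
    refine Nat.card_congr (Equiv.ofBijective ψ ⟨?_, ?_⟩)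
    · intro x y hxy
      have h1 : MulAut.conjNormal (G := L) (H := Q) (x : L) = MulAut.conjNormal (y : L) := congrArg Subtype.val hxy
      have h2 : (x : L)⁻¹ * y ∈ Q := hker _ (by rw [map_mul, map_inv, h1, inv_mul_cancel])
      by_contra hne
      have hw1 : (x : L)⁻¹ * y ≠ 1 := by
        intro h
        apply hne
        exact Subtype.ext (inv_mul_eq_one.mp h)
      apply hg
      refine mem_of_fix hC hfree h2 hw1 ?_
      have hx : (x : L) * g = g * x := Subgroup.mem_centralizer_singleton_iff.mp x.2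
      have hy : (y : L) * g = g * y := Subgroup.mem_centralizer_singleton_iff.mp y.2
      have hxi : g * (x : L)⁻¹ = (x : L)⁻¹ * g := by
        rw [eq_inv_mul_iff_mul_eq, ← mul_assoc, hx, mul_assoc, mul_inv_cancel, mul_one]
      calc g * ((x : L)⁻¹ * y) * g⁻¹ = (g * (x : L)⁻¹) * (y * g⁻¹) := by group
        _ = (x : L)⁻¹ * g * (y * g⁻¹) := by rw [hxi]
        _ = (x : L)⁻¹ * (g * y) * g⁻¹ := by group
        _ = (x : L)⁻¹ * (y * g) * g⁻¹ := by rw [hy]
        _ = _ := by group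
    · rintro ⟨_, y, rfl⟩
      let τ : Q → Q := fun t => ⟨t * (g * (t : L)⁻¹ * g⁻¹), Q.mul_mem t.2 (hN.conj_mem _ (Q.inv_mem t.2) g)⟩
      have hτinj : Function.Injective τ := by
        intro s t hst
        have h1 : (s : L) * (g * (s : L)⁻¹ * g⁻¹) = t * (g * (t : L)⁻¹ * g⁻¹) := congrArg Subtype.val hst
        by_contra hne
        have hw1 : (t : L)⁻¹ * s ≠ 1 := by
          intro h
          apply hne
          exact Subtype.ext (inv_mul_eq_one.mp h).symm
        apply hg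
        refine mem_of_fix hC hfree (Q.mul_mem (Q.inv_mem t.2) s.2) hw1 ?_
        have h2 : (s : L) * g * (s : L)⁻¹ = t * g * (t : L)⁻¹ := by
          have h3 : (s : L) * g * (s : L)⁻¹ = (s : L) * (g * (s : L)⁻¹ * g⁻¹) * g := by group
          rw [h3, h1]
          group
        have h3 : (s : L)⁻¹ * t * g = g * ((s : L)⁻¹ * t) := by
          calc (s : L)⁻¹ * t * g = (s : L)⁻¹ * (t * g * (t : L)⁻¹) * t := by group
            _ = (s : L)⁻¹ * ((s : L) * g * (s : L)⁻¹) * t := by rw [h2]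
            _ = _ := by group
        have h4 : (t : L)⁻¹ * s = ((s : L)⁻¹ * t)⁻¹ := by group
        rw [h4]
        calc g * ((s : L)⁻¹ * t)⁻¹ * g⁻¹ = ((s : L)⁻¹ * t)⁻¹ * (((s : L)⁻¹ * t) * g) * ((s : L)⁻¹ * t)⁻¹ * g⁻¹ := by group
          _ = ((s : L)⁻¹ * t)⁻¹ * (g * ((s : L)⁻¹ * t)) * ((s : L)⁻¹ * t)⁻¹ * g⁻¹ := by rw [h3]
          _ = _ := by group
      obtain ⟨t, ht⟩ := (Finite.injective_iff_surjective.mp hτinj) ⟨(y * g * y⁻¹ * g⁻¹)⁻¹, Q.inv_mem (hEab y g)⟩
      have ht' : (t : L) * (g * (t : L)⁻¹ * g⁻¹) = (y * g * y⁻¹ * g⁻¹)⁻¹ := congrArg Subtype.val ht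
      set q₀ : L := y * g * y⁻¹ * g⁻¹ with hq₀
      have hq₀Q : q₀ ∈ Q := hEab y g
      have hcom : (t : L) * q₀ = q₀ * t := congrArg Subtype.val (hcQ t ⟨q₀, hq₀Q⟩)
      have h5 : q₀ * t * g = g * t := by
        have h6 : q₀ * ((t : L) * (g * (t : L)⁻¹ * g⁻¹)) = 1 := by
          rw [ht', mul_inv_cancel]
        calc q₀ * t * g = q₀ * ((t : L) * (g * (t : L)⁻¹ * g⁻¹)) * (g * t) := by group
          _ = g * t := by rw [h6, one_mul]
      have h7 : y * g = q₀ * g * y := by
        rw [hq₀]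
        group
      refine ⟨⟨t * y, ?_⟩, ?_⟩
      · rw [Subgroup.mem_centralizer_singleton_iff]
        calc (t : L) * y * g = t * (y * g) := by group
          _ = t * (q₀ * g * y) := by rw [h7]
          _ = ((t : L) * q₀) * g * y := by group
          _ = (q₀ * t) * g * y := by rw [hcom]
          _ = (q₀ * t * g) * y := by group
          _ = (g * t) * y := by rw [h5]
          _ = _ := by group
      · apply Subtype.ext
        show MulAut.conjNormal ((t : L) * y) = MulAut.conjNormal y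
        rw [map_mul, hker' _ t.2, one_mul]
  -- the sum
  have hk := card_comm_eq_card_conjClasses_mul_card L
  have h1 : Nat.card { p : L × L // Commute p.1 p.2 } = ∑ g : L, Nat.card (Subgroup.centralizer ({g} : Set L)) := by
    rw [Nat.card_congr (Equiv.subtypeProdEquivSigmaSubtype Commute), Nat.card_sigma]
    refine Finset.sum_congr rfl fun g _ => Nat.card_congr (Equiv.subtypeEquivRight fun b => ?_)
    rw [Subgroup.mem_centralizer_singleton_iff]
    exact ⟨fun h => h.symm, fun h => h.symm⟩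
  rw [h1] at hk
  have hsplit := Finset.sum_filter_add_sum_filter_not (Finset.univ : Finset L) (· ∈ Q)
    (fun g => Nat.card (Subgroup.centralizer ({g} : Set L)))
  have hQf : (Finset.univ.filter (· ∈ Q) : Finset L).card = Nat.card Q :=
    (Nat.subtype_card _ (by simp)).symm
  have hnot : (Finset.univ.filter (· ∉ Q) : Finset L).card = Nat.card L - Nat.card Q := by
    have h2 := Finset.card_filter_add_card_filter_not (s := (Finset.univ : Finset L)) (· ∈ Q)
    rw [hQf, Finset.card_univ, ← Nat.card_eq_fintype_card] at h2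
    omega
  have hs2 : ∑ g ∈ Finset.univ.filter (· ∉ Q), Nat.card (Subgroup.centralizer ({g} : Set L)) = (Nat.card L - Nat.card Q) * e := by
    rw [Finset.sum_congr rfl fun g hg => hNg g (Finset.mem_filter.mp hg).2, Finset.sum_const, hnot, smul_eq_mul]
  have h1Q : (1 : L) ∈ (Finset.univ.filter (· ∈ Q) : Finset L) := Finset.mem_filter.mpr ⟨Finset.mem_univ _, Q.one_mem⟩
  have hs1 : ∑ g ∈ Finset.univ.filter (· ∈ Q), Nat.card (Subgroup.centralizer ({g} : Set L)) =
      Nat.card L + (Nat.card Q - 1) * Nat.card Q := by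
    rw [← Finset.add_sum_erase _ _ h1Q]
    congr 1
    · have htop : Subgroup.centralizer ({1} : Set L) = ⊤ := by
        ext x
        simp [Subgroup.mem_centralizer_singleton_iff]
      rw [htop, Subgroup.card_top]
    · have h3 : ∀ g ∈ (Finset.univ.filter (· ∈ Q) : Finset L).erase 1, Nat.card (Subgroup.centralizer ({g} : Set L)) = Nat.card Q := by
        intro g hg
        rw [centralizer_singleton_eq hcyc hC hfree (Finset.mem_filter.mp (Finset.mem_of_mem_erase hg)).2 (Finset.ne_of_mem_erase hg)]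
      rw [Finset.sum_congr rfl h3, Finset.sum_const, Finset.card_erase_of_mem h1Q, hQf, smul_eq_mul]
  rw [← hsplit, hs1, hs2] at hk
  rw [Cfsg.Agent.Lib.Char.CompleteCor.card_irr_eq_card_conjClasses]
  -- the arithmetic
  have hq0 : 0 < Nat.card Q := Nat.card_pos
  have hL0 : 0 < Nat.card L := Nat.card_pos
  have he0 : 0 < e := by
    rw [hL] at hL0
    exact Nat.pos_of_mul_pos_left hL0
  obtain ⟨e', rfl⟩ : ∃ e', e = e' + 1 := ⟨e - 1, by omega⟩
  set q := Nat.card Q with hq
  have hqm : q - 1 = m * (e' + 1) := hm.symm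
  have hLq : Nat.card L - q = q * e' := by
    rw [hL, mul_add, mul_one]
    omega
  rw [hLq, hqm, hL] at hk
  have h8 : (Nat.card (ConjClasses L)) * (q * (e' + 1)) = (e' + 1 + m) * (q * (e' + 1)) := by
    rw [← hk]
    ring
  exact Nat.eq_of_mul_eq_mul_right (Nat.mul_pos hq0 he0) h8

end Lat

end Cfsg.Agent.Lib.Dade
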